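import Cfsg.Agent.H393.Iso.Suz
import Cfsg.Agent.SuzThree.CentCard

/-!
# `Suz`: no element of order 26 (helper385)
-/

set_option autoImplicit false

namespace Cfsg.Agent.H385.Sp

open Subgroup Cfsg Cfsg.Spor Cfsg.Agent.H393.Iso
open Cfsg.Agent.SporadicRecognition.SuzOrder Cfsg.Agent.SuzThree.Basic Cfsg.Agent.SuzThree.CentA
  Cfsg.Agent.KFacts.SuzLFour Cfsg.Agent.KFacts.SuzTwoB Cfsg.Agent.CTwoTab.SuzPlane

theorem na13_suz_model [Finite Cfsg.Spor.Suz] : NA 13 Cfsg.Spor.Suz := by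
  refine NA.of_isConj (fun s => s = z0 ∨ s = e0) (fun t ht ht1 => ?_) ?_
  · rcases CTwoTab.Suz.classes ht ht1 with h | h
    · exact ⟨_, Or.inl rfl, h⟩
    · exact ⟨_, Or.inr rfl, h⟩
  · rintro s (rfl | rfl) x hx hxs
    · exact not_comm_of_dvd (n := 3317760) (dvd_of_eq SuzThree.CentCard.card_C1) (by norm_num) hx hxs
    · exact not_comm_of_dvd (n := 161280) (dvd_of_eq card_CE) (by norm_num) hx hxs

theorem na13_suz {G : Type*} [Group G] [Finite G] (h : Spor.IsoSuz G) : NA 13 G :=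
  h.elim fun e =>
    have := Finite.of_equiv G e.toEquiv
    na13_suz_model.of_equiv e.symm

end Cfsg.Agent.H385.Sp
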